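import Cfsg.Agent.H996.Deg.CoxPar
import Cfsg.Agent.SignalizersComponents.DihedralIso

/-!
# Double cosets in the dihedral group of order 16 (helper195)
-/

set_option autoImplicit false

namespace Cfsg.Agent.H195.Dl.Dih

open Cfsg.Agent.H996.Deg.CoxPar Cfsg.Agent.SignalizersComponents.DihedralIso

universe u

instance instNeZeroEight195 : NeZero 8 := ⟨by norm_num⟩

theorem exists_dih {W : Type u} [Group W] {a x : W} (ha : a * a = 1) (hax : a * x * a⁻¹ = x⁻¹)
    (hn : a ∉ Subgroup.zpowers x) (hx : orderOf x = 8) (htop : Subgroup.zpowers a ⊔ Subgroup.zpowers x = ⊤) :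
    ∃ e : DihedralGroup 8 ≃* W, e (.sr 0) = a := by
  have hx1 : x ^ 8 = 1 := by rw [← hx]; exact pow_orderOf_eq_one x
  have h0 : dihHom 8 a x hx1 ha hax (DihedralGroup.sr 0) = a := by
    have := dihHom_sr 8 a x hx1 ha hax 0
    rwa [Int.cast_zero, zpow_zero, mul_one] at this
  have hinj : Function.Injective (dihHom 8 a x hx1 ha hax) := by
    rw [injective_iff_map_eq_one]
    rintro (i | i) h
    · obtain ⟨k, rfl⟩ := ZMod.intCast_surjective i
      rw [dihHom_r] at h
      have h1 : (8 : ℤ) ∣ k := by
        have h2 := orderOf_dvd_iff_zpow_eq_one.mpr h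
        rw [hx] at h2
        exact_mod_cast h2
      rw [(ZMod.intCast_zmod_eq_zero_iff_dvd k 8).mpr (by exact_mod_cast h1)]
      rfl
    · obtain ⟨k, rfl⟩ := ZMod.intCast_surjective i
      rw [dihHom_sr] at h
      exfalso
      apply hn
      rw [mul_eq_one_iff_eq_inv] at h
      rw [h]
      exact inv_mem (Subgroup.zpow_mem_zpowers x k)
  have hsurj : Function.Surjective (dihHom 8 a x hx1 ha hax) := by
    rw [← MonoidHom.range_eq_top, dihHom_range, htop]
  exact ⟨MulEquiv.ofBijective _ ⟨hinj, hsurj⟩, h0⟩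

/-- the class of a double coset of `⟨sr 0⟩` -/
def cl : DihedralGroup 8 → Fin 5
  | .r k => ⟨min k.val (8 - k.val), by omega⟩
  | .sr k => ⟨min k.val (8 - k.val), by omega⟩

theorem cl_left : ∀ w : DihedralGroup 8, cl (.sr 0 * w) = cl w := by decide +kernel

theorem cl_right : ∀ w : DihedralGroup 8, cl (w * .sr 0) = cl w := by decide +kernel

theorem cl_sep : ∀ w w' : DihedralGroup 8, cl w = cl w' →
    w' = w ∨ w' = .sr 0 * w ∨ w' = w * .sr 0 ∨ w' = .sr 0 * w * .sr 0 := by decide +kernel

theorem cl_surj : ∀ i : Fin 5, ∃ w, cl w = i := by decide +kernel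

theorem card_DC {W : Type u} [Group W] {s : W} (e : DihedralGroup 8 ≃* W) (he : e (.sr 0) = s) :
    Nat.card (DC s) = 5 := by
  have ss : s * s = 1 := by
    rw [← he, ← map_mul]
    have : (DihedralGroup.sr 0 * DihedralGroup.sr 0 : DihedralGroup 8) = 1 := by decide
    rw [this, map_one]
  have hes : e.symm s = .sr 0 := by rw [← he, e.symm_apply_apply]
  let f : W → Fin 5 := fun w => cl (e.symm w)
  have hl : ∀ w, f (s * w) = f w := fun w => by
    show cl (e.symm (s * w)) = cl (e.symm w)
    rw [map_mul, hes, cl_left]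
  have hr : ∀ w, f (w * s) = f w := fun w => by
    show cl (e.symm (w * s)) = cl (e.symm w)
    rw [map_mul, hes, cl_right]
  have hinv : ∀ w w' : W, (∃ a ∈ Subgroup.zpowers s, ∃ b ∈ Subgroup.zpowers s, w' = a * w * b) → f w = f w' := by
    rintro w w' ⟨a, ha, b, hb, rfl⟩
    rcases mem_zp ss ha with rfl | rfl <;> rcases mem_zp ss hb with rfl | rfl
    · rw [one_mul, mul_one]
    · rw [one_mul, hr]
    · rw [mul_one, hl]
    · rw [hr, hl]
  have h1 : Function.Bijective (Quotient.lift (s := DoubleCoset.setoid _ _) f (by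
      intro w w' h
      exact hinv w w' (DoubleCoset.rel_iff.1 h)) : DC s → Fin 5) := by
    constructor
    · intro x y
      induction x using Quotient.inductionOn with | _ w => ?_
      induction y using Quotient.inductionOn with | _ w' => ?_
      intro h
      have h2 : cl (e.symm w) = cl (e.symm w') := h
      apply Quotient.sound
      refine DoubleCoset.rel_iff.2 ?_
      have hs := Subgroup.mem_zpowers s
      have key : ∀ {a b : DihedralGroup 8}, a = b → e a = e b := fun h => congrArg e h
      rcases cl_sep _ _ h2 with h3 | h3 | h3 | h3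
      · have h4 := key h3
        rw [e.apply_symm_apply, e.apply_symm_apply] at h4
        exact ⟨1, one_mem _, 1, one_mem _, by rw [h4, one_mul, mul_one]⟩
      · have h4 := key h3
        rw [map_mul, e.apply_symm_apply, e.apply_symm_apply, he] at h4
        exact ⟨s, hs, 1, one_mem _, by rw [h4, mul_one]⟩
      · have h4 := key h3
        rw [map_mul, e.apply_symm_apply, e.apply_symm_apply, he] at h4
        exact ⟨1, one_mem _, s, hs, by rw [h4, one_mul]⟩
      · have h4 := key h3
        rw [map_mul, map_mul, e.apply_symm_apply, e.apply_symm_apply, he] at h4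
        exact ⟨s, hs, s, hs, h4⟩
    · intro i
      obtain ⟨w, hw⟩ := cl_surj i
      refine ⟨Quotient.mk _ (e w), ?_⟩
      show cl (e.symm (e w)) = i
      rw [e.symm_apply_apply, hw]
  exact (Nat.card_congr (Equiv.ofBijective _ h1)).trans (by rw [Nat.card_eq_fintype_card, Fintype.card_fin])

theorem card_W {W : Type u} [Group W] (e : DihedralGroup 8 ≃* W) : Nat.card W = 16 := by
  rw [← Nat.card_congr e.toEquiv, DihedralGroup.nat_card]

end Cfsg.Agent.H195.Dl.Dih
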