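import Cfsg.Agent.H967.Sph.Table

/-!
# The spherical machine: certificates (helper195)

`eig_of_cert`, `uniq_of_cert`: the hypotheses `he`, `hu` of `Cfsg.Agent.H967.Sph.exists_char` from an integral matrix and an
integral certificate.
-/

set_option autoImplicit false

namespace Cfsg.Agent.H195.Dl.TabLin

open Cfsg.Agent.H967.Sph

variable {I : Type*} [DecidableEq I] {A : I → I → ℤ} {j : I} {N m : ℕ} (t : Tab A j N m) (q : I → ℕ)

/-- the indicator function of a class -/
def ind (c : Fin m) (u : Fin N) : ℚ := if t.cls u = c then 1 else 0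

theorem tau_sum (i : I) (b : Fin m → ℚ) (φ : Fin m → Fin N → ℚ) :
    t.tau q i (fun s => ∑ c, b c * φ c s) = fun s => ∑ c, b c * t.tau q i (φ c) s := by
  funext s
  unfold Tab.tau
  split_ifs
  · rw [Finset.mul_sum, ← Finset.sum_add_distrib]
    exact Finset.sum_congr rfl fun c _ => by ring
  · rw [Finset.mul_sum]
    exact Finset.sum_congr rfl fun c _ => by ring

theorem tauW_sum (w : List I) (b : Fin m → ℚ) (φ : Fin m → Fin N → ℚ) :
    t.tauW q w (fun s => ∑ c, b c * φ c s) = fun s => ∑ c, b c * t.tauW q w (φ c) s := by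
  induction w with
  | nil => rfl
  | cons i w ih =>
    show t.tau q i (t.tauW q w (fun s => ∑ c, b c * φ c s)) = fun s => ∑ c, b c * t.tau q i (t.tauW q w (φ c)) s
    rw [ih, tau_sum]

theorem tauD_sum (D : List (List I)) (b : Fin m → ℚ) (φ : Fin m → Fin N → ℚ) (s : Fin N) :
    t.tauD q D (fun s => ∑ c, b c * φ c s) s = ∑ c, b c * t.tauD q D (φ c) s := by
  unfold Tab.tauD
  induction D with
  | nil => simp
  | cons w D ih =>
    simp only [List.map_cons, List.sum_cons] at ih ⊢
    rw [ih, tauW_sum, ← Finset.sum_add_distrib]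
    exact Finset.sum_congr rfl fun c _ => by ring

theorem tauD_cls (D : List (List I)) (b : Fin m → ℚ) (s : Fin N) :
    t.tauD q D (fun u => b (t.cls u)) s = ∑ c, b c * t.tauD q D (ind t c) s := by
  rw [← tauD_sum]
  congr 1
  funext u
  unfold ind
  simp

variable {t q} {D : List (List I)} {M : Fin m → Fin m → ℤ} {θ : ℤ} {aI : Fin m → ℤ} {la : ℤ}
  (hM : ∀ s c, t.tauD q D (ind t c) s = (M (t.cls s) c : ℚ))

include hM

theorem eig_of_cert (ha : ∀ r, ∑ c, M r c * aI c = θ * aI r) (s : Fin N) :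
    t.tauD q D (fun u => (fun c => (aI c : ℚ) / la) (t.cls u)) s = (θ : ℚ) * ((aI (t.cls s) : ℚ) / la) := by
  rw [tauD_cls t q D (fun c => (aI c : ℚ) / la)]
  have h1 : ∑ c, (M (t.cls s) c : ℚ) * (aI c : ℚ) = (θ : ℚ) * (aI (t.cls s) : ℚ) := by
    exact_mod_cast ha (t.cls s)
  have h2 : ∑ c, (aI c : ℚ) / la * t.tauD q D (ind t c) s = (∑ c, (M (t.cls s) c : ℚ) * (aI c : ℚ)) / la := by
    rw [Finset.sum_div]
    refine Finset.sum_congr rfl fun c _ => ?_
    rw [hM]
    ring
  rw [h2, h1]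
  ring

theorem uniq_of_cert (hcls : ∀ k, t.cls (t.crep k) = k) {C : Fin m → Fin m → ℤ} {e : ℤ} (hla : la ≠ 0) (he : e ≠ 0)
    (hC : ∀ r c, ∑ k, C r k * (M k c - if k = c then θ else 0) =
      (if r = c then la * e else 0) - if c = t.cls t.o then aI r * e else 0)
    (b : Fin m → ℚ) (hb : ∀ s, t.tauD q D (fun u => b (t.cls u)) s = (θ : ℚ) * b (t.cls s)) (c : Fin m) :
    b c = b (t.cls t.o) * ((aI c : ℚ) / la) := by
  have h1 : ∀ k, ∑ c, b c * ((M k c : ℚ) - if k = c then (θ : ℚ) else 0) = 0 := by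
    intro k
    have h2 := hb (t.crep k)
    rw [tauD_cls, hcls] at h2
    simp only [mul_sub, Finset.sum_sub_distrib, mul_ite, mul_zero, Finset.sum_ite_eq, Finset.mem_univ, if_true]
    have h3 : ∑ c, b c * (M k c : ℚ) = ∑ c, b c * t.tauD q D (ind t c) (t.crep k) :=
      Finset.sum_congr rfl fun c _ => by rw [hM, hcls]
    rw [h3, h2]
    ring
  have h2 : ∑ k, (C c k : ℚ) * ∑ d, b d * ((M k d : ℚ) - if k = d then (θ : ℚ) else 0) = 0 :=
    Finset.sum_eq_zero fun k _ => by rw [h1, mul_zero]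
  have h3 : ∑ k, (C c k : ℚ) * ∑ d, b d * ((M k d : ℚ) - if k = d then (θ : ℚ) else 0) =
      ∑ d, b d * ((if c = d then (la : ℚ) * e else 0) - if d = t.cls t.o then (aI c : ℚ) * e else 0) := by
    simp only [Finset.mul_sum]
    rw [Finset.sum_comm]
    refine Finset.sum_congr rfl fun d _ => ?_
    have h4 : ∑ k, (C c k : ℚ) * ((M k d : ℚ) - if k = d then (θ : ℚ) else 0) =
        (if c = d then (la : ℚ) * e else 0) - if d = t.cls t.o then (aI c : ℚ) * e else 0 := by
      have h5 := congrArg (fun x : ℤ => (x : ℚ)) (hC c d)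
      push_cast at h5
      exact h5
    rw [← h4, Finset.mul_sum]
    exact Finset.sum_congr rfl fun k _ => by ring
  rw [h3] at h2
  simp only [mul_sub, Finset.sum_sub_distrib, mul_ite, mul_zero, Finset.sum_ite_eq, Finset.sum_ite_eq',
    Finset.mem_univ, if_true] at h2
  have hla' : (la : ℚ) ≠ 0 := by exact_mod_cast hla
  have he' : (e : ℚ) ≠ 0 := by exact_mod_cast he
  have h6 : (e : ℚ) * (b c * la - b (t.cls t.o) * aI c) = 0 := by linear_combination h2
  have h7 := (mul_eq_zero.1 h6).resolve_left he'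
  field_simp
  linear_combination h7

end Cfsg.Agent.H195.Dl.TabLin
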