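import Cfsg.Agent.H195.Dl.F4Tab
import Cfsg.Agent.H195.Dl.TabLin

/-!
# Eigenvalues for `F₄(2)`, second node (helper195)
-/

set_option autoImplicit false
set_option maxRecDepth 100000
set_option exponentiation.threshold 5000

namespace Cfsg.Agent.H195.Dl.F4Tab

open Cfsg.Agent.H967.Sph Cfsg.Agent.H195.Dl.TabLin

/-- the matrix of the operator on the classes -/
def mZ (r c : Fin 17) : ℤ := (mL.getD r []).getD c 0

theorem cls_crep : ∀ k : Fin 17, tab.cls (tab.crep k) = k := by decide +kernel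

theorem entries : ∀ (s : Fin 96) (c : Fin 17), tab.tauD (fun _ => 2) words (ind tab c) s = (mZ (tab.cls s) c : ℚ) := by
  decide +kernel

/-! ### the three eigenvalues -/

def vA (c : Fin 17) : ℤ := aA.getD c 0
def vB (c : Fin 17) : ℤ := aB.getD c 0
def vC (c : Fin 17) : ℤ := aC.getD c 0
def kA (r c : Fin 17) : ℤ := (cA.getD r []).getD c 0
def kB (r c : Fin 17) : ℤ := (cB.getD r []).getD c 0
def kC (r c : Fin 17) : ℤ := (cC.getD r []).getD c 0

theorem eigA : ∀ r : Fin 17, ∑ c, mZ r c * vA c = -3 * vA r := by decide +kernel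
theorem eigB : ∀ r : Fin 17, ∑ c, mZ r c * vB c = 1 * vB r := by decide +kernel
theorem eigC : ∀ r : Fin 17, ∑ c, mZ r c * vC c = 9 * vC r := by decide +kernel

theorem certA : ∀ r c : Fin 17, ∑ k, kA r k * (mZ k c - if k = c then -3 else 0) =
    (if r = c then 28672 * 4320 else 0) - if c = tab.cls tab.o then vA r * 4320 else 0 := by decide +kernel

theorem certB : ∀ r c : Fin 17, ∑ k, kB r k * (mZ k c - if k = c then 1 else 0) =
    (if r = c then 258048 * 5576 else 0) - if c = tab.cls tab.o then vB r * 5576 else 0 := by decide +kernel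

theorem certC : ∀ r c : Fin 17, ∑ k, kC r k * (mZ k c - if k = c then 9 else 0) =
    (if r = c then 86016 * 2640 else 0) - if c = tab.cls tab.o then vC r * 2640 else 0 := by decide +kernel

theorem sumA : (519792 : ℤ) * ∑ s, (wt s : ℤ) * vA (tab.cls s) ^ 2 = 28672 ^ 2 * ∑ s, (wt s : ℤ) := by decide +kernel
theorem sumB : (947700 : ℤ) * ∑ s, (wt s : ℤ) * vB (tab.cls s) ^ 2 = 258048 ^ 2 * ∑ s, (wt s : ℤ) := by decide +kernel
theorem sumC : (584766 : ℤ) * ∑ s, (wt s : ℤ) * vC (tab.cls s) ^ 2 = 86016 ^ 2 * ∑ s, (wt s : ℤ) := by decide +kernel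

end Cfsg.Agent.H195.Dl.F4Tab
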