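import Cfsg.Agent.H195.Dl.F4Eig
import Cfsg.Agent.H967.Sph.Main
import Cfsg.Agent.H71.Dl.HeightRows
import Cfsg.Agent.FixBN.SplitRGD
import Cfsg.Agent.H163.Steinberg
import Cfsg.Agent.H246.Dl.Defs

/-!
# `F₄(2)`, `p = 2`, for S4769 (helper195)

Four characters of even degree: `519792`, `947700`, `584766` (constituents of the permutation character on the cosets
of the second maximal parabolic subgroup) and the Steinberg character.
-/

set_option autoImplicit false
set_option linter.unusedSectionVars false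

namespace Cfsg.Agent.H195.Dl.F4Two

open Cfsg Cfsg.Agent.H967.Sph Cfsg.Agent.H195.Dl.F4Tab Cfsg.Agent.H195.Dl.TabLin Cfsg.Agent.H246.Dl
open CoxeterSystem Cfsg.Agent.ChevalleyStructure.CoxeterGeom Cfsg.Agent.Tits.Roots Cfsg.Agent.Tits.Core
  Cfsg.Agent.Tits.RootComb Cfsg.Agent.Nodes.Comb Cfsg.Agent.Nodes.Reps Cfsg.Agent.Nodes.BNOf
  Cfsg.Agent.Nodes.Bruhat Cfsg.Agent.Nodes.LeviDec
open Cfsg.Lie Cfsg.Agent.ChevalleyStructure Cfsg.Agent.ChevalleyStructure.Elts
  Cfsg.Agent.ChevalleyStructure.RootVec Cfsg.Agent.ChevalleyStructure.RootVecTab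
  Cfsg.Agent.ChevalleyStructure.NPerm Cfsg.Agent.ChevalleyStructure.CoxeterGeomTypes
open Cfsg.Agent.Nodes Cfsg.Agent.Nodes.RGDChev

universe u

section machine

variable {W : Type*} {Y : Type u} [Group W] [Finite W] [Group Y] [Finite Y]
    {M : CoxeterMatrix (Fin 4)} {cs : CoxeterSystem M W} {h : IsCartan M (cartanOf Lie.chevF4 4)} {p : ℕ}
    {T : Subgroup Y} {n : Fin 4 → Y} {X : (Fin 4 → ℤ) → Subgroup Y} (R : RGD cs h p T n X) (hG : GG cs h T X = ⊤)
    (hq : ∀ i, Nat.card (X (sr i)) = 2)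

include R hG hq

theorem exists_deg (la e θ : ℤ) (v : Fin 17 → ℤ) (C : Fin 17 → Fin 17 → ℤ) (d : ℕ) (hla : la ≠ 0) (he : e ≠ 0)
    (hv : v (tab.cls tab.o) = la) (h1 : ∀ r, ∑ c, mZ r c * v c = θ * v r)
    (h2 : ∀ r c, ∑ k, C r k * (mZ k c - if k = c then θ else 0) =
      (if r = c then la * e else 0) - if c = tab.cls tab.o then v r * e else 0)
    (h3 : (d : ℤ) * ∑ s, (wt s : ℤ) * v (tab.cls s) ^ 2 = la ^ 2 * ∑ s, (wt s : ℤ)) :
    ∃ χ : Y → ℂ, IsIrrCharacter Y χ ∧ χ 1 = d := by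
  have hla' : (la : ℚ) ≠ 0 := by exact_mod_cast hla
  have h4 : (d : ℚ) * ∑ s, (wt s : ℚ) * (v (tab.cls s) : ℚ) ^ 2 = (la : ℚ) ^ 2 * ∑ s, (wt s : ℚ) := by
    exact_mod_cast h3
  obtain ⟨χ, k1, -, k3⟩ := exists_char R hG tab (fun _ => 2) hq words (θ : ℚ) (fun c => (v c : ℚ) / la)
    (by
      show ((v (tab.cls tab.o) : ℤ) : ℚ) / la = 1
      rw [hv, div_self hla'])
    (fun s => eig_of_cert entries h1 s)
    (fun b hb c => uniq_of_cert entries cls_crep hla he h2 b hb c) wt wt_o wt_st d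
    (by
      have h5 : ∑ s, (wt s : ℚ) * ((v (tab.cls s) : ℚ) / la) ^ 2 =
          (∑ s, (wt s : ℚ) * (v (tab.cls s) : ℚ) ^ 2) / la ^ 2 := by
        rw [Finset.sum_div]
        exact Finset.sum_congr rfl fun s _ => by rw [div_pow]; ring
      show (d : ℚ) * ∑ s, (wt s : ℚ) * ((v (tab.cls s) : ℚ) / la) ^ 2 = _
      rw [h5, ← mul_div_assoc, h4, mul_div_cancel_left₀ _ (pow_ne_zero 2 hla')])
  exact ⟨χ, k1, k3⟩

theorem exists_A : ∃ χ : Y → ℂ, IsIrrCharacter Y χ ∧ χ 1 = (519792 : ℕ) :=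
  exists_deg R hG hq 28672 4320 (-3) vA kA 519792 (by norm_num) (by norm_num) (by decide +kernel) eigA certA
    (by exact_mod_cast sumA)

theorem exists_B : ∃ χ : Y → ℂ, IsIrrCharacter Y χ ∧ χ 1 = (947700 : ℕ) :=
  exists_deg R hG hq 258048 5576 1 vB kB 947700 (by norm_num) (by norm_num) (by decide +kernel) eigB certB
    (by exact_mod_cast sumB)

theorem exists_C : ∃ χ : Y → ℂ, IsIrrCharacter Y χ ∧ χ 1 = (584766 : ℕ) :=
  exists_deg R hG hq 86016 2640 9 vC kC 584766 (by norm_num) (by norm_num) (by decide +kernel) eigC certC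
    (by exact_mod_cast sumC)

theorem many [IsSimpleGroup Y] (hp : p = 2) (hgen : RGD.B cs h T X ⊔ NN cs R.nsys = ⊤) : Many 2 Y 4 := by
  subst hp
  have hp2 : Fact (Nat.Prime 2) := ⟨Nat.prime_two⟩
  obtain ⟨χ, hχ, hst⟩ := H163.Steinberg.exists_irr_of_hasSplit (FixBN.SplitRGD.hasSplit_of_rgd Nat.prime_two R hgen)
  have Q : Sylow 2 Y := default
  have k1 := (hst Q).1
  have h2 : 2 ∣ Nat.card Y := by
    rw [← hq 0]
    exact Subgroup.card_subgroup_dvd_card _
  have h2Q : 2 ∣ Nat.card Q := Q.dvd_card_of_dvd_card h2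
  have h3Q : ¬ 3 ∣ Nat.card Q := by
    obtain ⟨e, he⟩ := (IsPGroup.iff_card (p := 2)).1 Q.2
    rw [he]
    intro h3
    exact absurd (Nat.prime_three.dvd_of_dvd_pow h3) (by norm_num)
  have hne : ∀ d ∈ ({519792, 947700, 584766} : Finset ℕ), d ≠ Nat.card Q := by
    intro d hd he
    apply h3Q
    rw [← he]
    simp only [Finset.mem_insert, Finset.mem_singleton] at hd
    rcases hd with rfl | rfl | rfl <;> norm_num
  have h1 : ∀ d ∈ insert (Nat.card Q) ({519792, 947700, 584766} : Finset ℕ), 2 ∣ d ∧ ∃ χ : Y → ℂ,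
      IsIrrCharacter Y χ ∧ χ 1 = d := by
    intro d hd
    rw [Finset.mem_insert] at hd
    rcases hd with rfl | hd
    · exact ⟨h2Q, χ, hχ, k1⟩
    simp only [Finset.mem_insert, Finset.mem_singleton] at hd
    rcases hd with rfl | rfl | rfl
    · exact ⟨by norm_num, exists_A R hG hq⟩
    · exact ⟨by norm_num, exists_B R hG hq⟩
    · exact ⟨by norm_num, exists_C R hG hq⟩
  have hc : (insert (Nat.card Q) ({519792, 947700, 584766} : Finset ℕ)).card = 4 := by
    rw [Finset.card_insert_of_notMem (fun h => hne _ h rfl)]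
    rfl
  have := Many.of_finset h1
  rwa [hc] at this

end machine

/-- the order of a root group -/
theorem card_XX {D : ChevalleyDatum} {l : ℕ} {M : CoxeterMatrix (Fin l)} (hp : IsType D l M) (K : Type u) [Field K]
    {W : Type*} [Group W] (cs : CoxeterSystem M W) {x : Fin l → ℤ} (hx : IsRoot cs hp.isCartan x) :
    Nat.card ↥((XV D l K x).subgroupOf (D.group K)) = Nat.card K := by
  rw [Nat.card_congr (Subgroup.subgroupOfEquivOfLe (XV_le_group hp x)).toEquiv]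
  obtain ⟨r, hr, rfl⟩ := (isRoot_iff hp cs x).1 hx
  rw [XV_vec hp K hr]
  symm
  refine Nat.card_congr (Equiv.ofBijective (fun t : K => (⟨xG hp.inList r t,
    xG_mem_rootSubgroup hp.inList r t⟩ : ↥(D.rootSubgroup K r))) ⟨?_, ?_⟩)
  · intro t u e
    exact xG_injective hp.inList hr (congrArg Subtype.val e)
  · rintro ⟨g, hg⟩
    obtain ⟨t, rfl⟩ := (mem_rootSubgroup_iff hp.inList r g).1 hg
    exact ⟨t, rfl⟩

theorem many_F4 {F : Type u} [Field F] [Finite F] (hF : Nat.card F = 2) (hs : IsSimpleGroup ↥(Lie.chevF4.group F)) :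
    Many 2 ↥(Lie.chevF4.group F) 4 := by
  have : Fintype F := Fintype.ofFinite F
  have hp2 : Fact (Nat.Prime 2) := ⟨Nat.prime_two⟩
  have hch : CharP F 2 := Cfsg.Agent.H71.Dl.charP_two_of_card (m := 1) (by rw [← Nat.card_eq_fintype_card, hF]; rfl)
  have hfin : Finite ↥(Lie.chevF4.group F) := inferInstance
  have hp := Cfsg.Agent.H71.Dl.hpF4
  have hW := finite_W hp CoxeterMatrix.F₄.toCoxeterSystem
  have R := rgd (K := F) hp CoxeterMatrix.F₄.toCoxeterSystem 2
  have hG : GG CoxeterMatrix.F₄.toCoxeterSystem hp.isCartan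
      ((Lie.chevF4.diagonalSubgroup F).subgroupOf (Lie.chevF4.group F))
      (fun x => (XV Lie.chevF4 4 F x).subgroupOf (Lie.chevF4.group F)) = ⊤ := by
    rw [eq_top_iff, ← G1_eq_top hp CoxeterMatrix.F₄.toCoxeterSystem]
    exact le_sup_right
  refine many R hG (fun i => ?_) rfl ?_
  · rw [card_XX hp F CoxeterMatrix.F₄.toCoxeterSystem (isRoot_sr _ _ i), hF]
  · rw [eq_top_iff, ← G1_eq_top hp CoxeterMatrix.F₄.toCoxeterSystem]
    exact RGDLib.rgd_G1_le R

/-- **`F₄(2)`, `p = 2`.** -/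
theorem row_two {S : Type*} [Group S] [Finite S] [IsSimpleGroup S] {F : Type u} [Field F] [Finite F]
    (hF : Nat.card F = 2) (e : S ≃* ↥(Lie.chevF4.group F)) : Row 2 S := by
  have : Fintype F := Fintype.ofFinite F
  have hp2 : Fact (Nat.Prime 2) := ⟨Nat.prime_two⟩
  have hch : CharP F 2 := Cfsg.Agent.H71.Dl.charP_two_of_card (m := 1) (by rw [← Nat.card_eq_fintype_card, hF]; rfl)
  have hs : IsSimpleGroup ↥(Lie.chevF4.group F) := e.symm.isSimpleGroup
  exact Row.of_le (Cfsg.Agent.H71.Dl.dl_eq_F4 e) (Many.of_equiv e (many_F4 hF hs)) le_rfl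

end Cfsg.Agent.H195.Dl.F4Two
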