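import Cfsg.Agent.H464.PermIrr

/-!
# Four nontrivial constituents of a permutation character of rank five (helper195)

`exists_four` : `X` transitive of rank five, `Z` transitive, an even number of orbits on `X × Z`: the permutation
character of `X` is multiplicity free.
-/

set_option autoImplicit false

namespace Cfsg.Agent.H195.Dl.Rank

open Cfsg MulAction Cfsg.Agent.H464.PermIrr Cfsg.Agent.Characters.Core

variable {G : Type*} [Group G] [Fintype G]

theorem exists_coeff (X : Type*) [MulAction G X] [Finite X] [Fintype (IrrCharacter G)] :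
    ∃ m : IrrCharacter G → ℕ, pc G X = ∑ ψ : IrrCharacter G, (m ψ : ℂ) • (ψ : G → ℂ) := by
  obtain ⟨m, hm⟩ := exists_nat_comb (isCharacter_pc G X)
  refine ⟨m, ?_⟩
  rw [hm]
  simp only [Nat.cast_smul_eq_nsmul]

theorem sum_mul [Fintype (IrrCharacter G)] (X Y : Type*) [MulAction G X] [MulAction G Y] [Finite X] [Finite Y]
    {a b : IrrCharacter G → ℕ} (ha : pc G X = ∑ ψ : IrrCharacter G, (a ψ : ℂ) • (ψ : G → ℂ))
    (hb : pc G Y = ∑ ψ : IrrCharacter G, (b ψ : ℂ) • (ψ : G → ℂ)) :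
    Nat.card (orbitRel.Quotient G (X × Y)) = ∑ ψ, a ψ * b ψ := by
  have h1 : (Nat.card (orbitRel.Quotient G (X × Y)) : ℂ) = ∑ ψ, (a ψ : ℂ) * b ψ := by
    rw [← classInner_pc G X Y, ha, hb, classInner_sum_smul_sum_smul]
    refine Finset.sum_congr rfl fun ψ _ => ?_
    rw [Complex.conj_natCast]
  exact_mod_cast h1

theorem coeff_eq [Fintype (IrrCharacter G)] (X : Type*) [MulAction G X]
    {a : IrrCharacter G → ℕ} (ha : pc G X = ∑ ψ : IrrCharacter G, (a ψ : ℂ) • (ψ : G → ℂ)) (ψ : IrrCharacter G) :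
    classInner (pc G X) (ψ : G → ℂ) = a ψ := by
  have h1 : (ψ : G → ℂ) = ∑ χ : IrrCharacter G, ((if χ = ψ then 1 else 0 : ℕ) : ℂ) • (χ : G → ℂ) := by
    rw [Finset.sum_eq_single ψ]
    · simp
    · intro χ _ h
      rw [if_neg h, Nat.cast_zero, zero_smul]
    · exact fun h => absurd (Finset.mem_univ _) h
  conv_lhs => rw [h1]
  rw [ha, classInner_sum_smul_sum_smul]
  simp

/-- the trivial character -/
noncomputable def triv (G : Type*) [Group G] : IrrCharacter G := ⟨1, isIrr_one⟩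

theorem coeff_triv [Fintype (IrrCharacter G)] (X : Type*) [MulAction G X] [Finite X] [Nonempty X]
    (htr : ∀ x y : X, ∃ g : G, g • x = y)
    {a : IrrCharacter G → ℕ} (ha : pc G X = ∑ ψ : IrrCharacter G, (a ψ : ℂ) • (ψ : G → ℂ)) : a (triv G) = 1 := by
  have h1 := coeff_eq X ha (triv G)
  have h2 : ((triv G : IrrCharacter G) : G → ℂ) = pc G PUnit.{1} := by
    funext g
    show (1 : ℂ) = (Nat.card (fixedBy PUnit.{1} g) : ℂ)
    have : Nat.card (fixedBy PUnit.{1} g) = 1 := by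
      rw [Nat.card_eq_one_iff_unique]
      exact ⟨⟨fun x y => Subsingleton.elim _ _⟩, ⟨⟨PUnit.unit, rfl⟩⟩⟩
    rw [this, Nat.cast_one]
  rw [h2, classInner_pc] at h1
  have h3 : Nat.card (orbitRel.Quotient G (X × PUnit.{1})) = 1 := by
    rw [Nat.card_eq_one_iff_unique]
    obtain ⟨x⟩ := ‹Nonempty X›
    refine ⟨⟨fun p q => ?_⟩, ⟨Quotient.mk _ (x, PUnit.unit)⟩⟩
    induction p using Quotient.inductionOn with | _ p => ?_
    induction q using Quotient.inductionOn with | _ q => ?_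
    obtain ⟨p, p'⟩ := p
    obtain ⟨q, q'⟩ := q
    obtain ⟨g, hg⟩ := htr q p
    exact Quotient.sound ⟨g, Prod.ext hg rfl⟩
  rw [h3] at h1
  exact_mod_cast h1.symm

/-- **Four nontrivial constituents.** -/
theorem exists_four (X Z : Type*) [MulAction G X] [MulAction G Z] [Finite X] [Finite Z] [Nonempty X] [Nonempty Z]
    (hX : ∀ x y : X, ∃ g : G, g • x = y) (hZ : ∀ x y : Z, ∃ g : G, g • x = y)
    (h5 : Nat.card (orbitRel.Quotient G (X × X)) = 5) (he : Even (Nat.card (orbitRel.Quotient G (X × Z)))) :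
    ∃ χ : Fin 4 → IrrCharacter G, Function.Injective χ ∧
      ∀ i, (χ i : G → ℂ) ≠ (1 : G → ℂ) ∧ classInner (pc G X) (χ i : G → ℂ) ≠ 0 := by
  classical
  have := finite_irr (G := G)
  have := Fintype.ofFinite (IrrCharacter G)
  obtain ⟨a, ha⟩ := exists_coeff (G := G) X
  obtain ⟨b, hb⟩ := exists_coeff (G := G) Z
  have h1 := sum_mul X X ha ha
  have h2 := sum_mul X Z ha hb
  have h3 := coeff_triv X hX ha
  have h4 := coeff_triv Z hZ hb
  set o := triv G with ho
  rw [h5, ← Finset.add_sum_erase _ _ (Finset.mem_univ o), h3] at h1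
  rw [← Finset.add_sum_erase _ _ (Finset.mem_univ o), h3, h4] at h2
  rw [h2] at he
  -- no multiplicity two
  have h6 : ∀ χ, χ ≠ o → a χ ≤ 1 := by
    intro χ hχ
    by_contra hlt
    have hmem : χ ∈ Finset.univ.erase o := Finset.mem_erase.2 ⟨hχ, Finset.mem_univ _⟩
    rw [← Finset.add_sum_erase _ _ hmem] at h1 he
    have h7 : 2 * 2 ≤ a χ * a χ := Nat.mul_le_mul (by omega) (by omega)
    have h8 : ∑ ψ ∈ (Finset.univ.erase o).erase χ, a ψ * a ψ = 0 := by omega
    have h9 : a χ * a χ = 4 := by omega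
    have h10 : a χ = 2 := by nlinarith
    have h11 : ∑ ψ ∈ (Finset.univ.erase o).erase χ, a ψ * b ψ = 0 := by
      refine Finset.sum_eq_zero fun ψ hψ => ?_
      have := Finset.sum_eq_zero_iff.1 h8 ψ hψ
      rw [(mul_self_eq_zero.1 this), zero_mul]
    rw [h11, h10] at he
    rw [Nat.even_iff] at he
    omega
  have h7 : ∑ ψ ∈ Finset.univ.erase o, a ψ * a ψ = ((Finset.univ.erase o).filter fun ψ => a ψ ≠ 0).card := by
    rw [Finset.card_filter]
    refine Finset.sum_congr rfl fun ψ hψ => ?_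
    have h8 := h6 ψ (Finset.ne_of_mem_erase hψ)
    by_cases h9 : a ψ = 0
    · rw [h9, if_neg (by simp)]
    · rw [if_pos h9]
      have : a ψ = 1 := by omega
      rw [this]
  have h8 : ((Finset.univ.erase o).filter fun ψ => a ψ ≠ 0).card = 4 := by omega
  let e := Finset.equivFinOfCardEq h8
  refine ⟨fun i => (e.symm i : IrrCharacter G), fun i j hij => e.symm.injective (Subtype.ext hij), fun i => ?_⟩
  obtain ⟨h9, h10⟩ := Finset.mem_filter.1 (e.symm i).2
  refine ⟨fun h => Finset.ne_of_mem_erase h9 (Subtype.ext h), ?_⟩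
  rw [coeff_eq X ha]
  exact_mod_cast h10

end Cfsg.Agent.H195.Dl.Rank
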