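import Cfsg.Agent.H996.Deg.OfDat
import Cfsg.Agent.H996.Deg.Parity
import Cfsg.Agent.H195.Dl.Dih
import Cfsg.Agent.H195.Dl.Rank
import Cfsg.Agent.LieRecognition.CoxForm

/-!
# Split (B,N)-data of type `I₂(8)`: the permutation character on the cosets of a minimal parabolic subgroup (helper195)

* `exists_bd'` : the building of a split (B,N)-datum, with the orders of the products of two simple reflections;
* `exists_four` : four nontrivial constituents.
-/

set_option autoImplicit false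
set_option linter.unusedSectionVars false
set_option linter.unusedVariables false

namespace Cfsg.Agent.H195.Dl.TwFBd

open Cfsg Cfsg.Agent.Tits.Core Cfsg.Agent.Tits.Core.Bldg Cfsg.Agent.Tits.OfBN Cfsg.Agent.H249
  Cfsg.Agent.LieExceptional.BNPairCore Cfsg.Agent.H996.Deg Cfsg.Agent.H996.Deg.OfDat Cfsg.Agent.H996.Deg.CoxPar
  Cfsg.Agent.H464.PermIrr Cfsg.Agent.Characters.Core MulAction Cfsg.Agent.H195.Dl.Dih

universe u v

section BN

variable {G : Type u} [Group G] {I : Type v} {p : ℕ} (D : Dat G I p)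

/-- The building of a split (B,N)-datum. -/
theorem exists_bd' [Finite G] (hN : D.N ≤ Subgroup.closure (Set.range D.n) ⊔ D.T) (hBN : D.B ⊓ D.N ≤ D.T)
    (hinj : ∀ i j, (D.n i)⁻¹ * D.n j ∈ D.B → i = j) :
    ∃ (M : CoxeterMatrix I) (W : Type u) (_ : Group W) (_ : Finite W) (cs : CoxeterSystem M W)
      (Δ : Bldg cs (G ⧸ D.B)), Bd D Δ (QuotientGroup.mk 1) ∧
      ∀ (i j : I) (k : ℕ), (cs.simple i * cs.simple j) ^ k = 1 ↔ (D.n i * D.n j) ^ k ∈ D.T := by
  set P := bnPair D hN hBN hinj with hP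
  have hnP := normal_subgroupOf P
  obtain ⟨M₀, cs₀, hcs₀⟩ := S0320.result P
  have hninj : Function.Injective D.n := fun i j h => hinj i j (by rw [h, inv_mul_cancel]; exact one_mem _)
  let e : I ≃ P.S := Equiv.ofInjective D.n hninj
  let cs : CoxeterSystem (M₀.reindex e.symm) (WP P) := cs₀.reindex e.symm
  have hcs : ∀ i, cs.simple i = QuotientGroup.mk (⟨(e i : G), P.subset (e i).2⟩ : P.N) := by
    intro i
    show (cs₀.reindex e.symm).simple i = _
    rw [CoxeterSystem.reindex_simple, Equiv.symm_symm]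
    exact hcs₀ (e i)
  refine ⟨_, WP P, inferInstance, inferInstance, cs, bldg P e cs hcs, ?_, ?_⟩
  · refine ⟨fun g x y => dist_smul P g x y, fun x y x' y' h => trans P x y x' y' h, fun g => ?_, fun i => ?_⟩
    · constructor
      · intro hg
        show (QuotientGroup.mk (g * 1) : G ⧸ D.B) = QuotientGroup.mk 1
        rw [eq_comm, QuotientGroup.eq]
        simpa using hg
      · intro hg
        have h1 : (QuotientGroup.mk (g * 1) : G ⧸ D.B) = QuotientGroup.mk 1 := hg
        rw [eq_comm, QuotientGroup.eq] at h1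
        simpa using h1
    · show (bldg P e cs hcs).δ (QuotientGroup.mk 1) (QuotientGroup.mk (D.n i * 1)) = cs.simple i
      rw [bldg_δ_mk, hcs]
      apply wt_of_mem P
      have h1 : (1 : G)⁻¹ * (D.n i * 1) = (e i : G) := by
        show _ = D.n i
        group
      rw [h1]
      exact self_mem_C _
  · intro i j k
    rw [hcs, hcs, ← QuotientGroup.mk_mul, ← QuotientGroup.mk_pow, QuotientGroup.eq_one_iff, Subgroup.mem_subgroupOf]
    constructor
    · intro h
      exact hBN h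
    · intro h
      exact ⟨D.T_le_B h, D.TN h⟩

end BN

/-! ### the dihedral group -/

theorem exists_dih_cs {W : Type u} [Group W] [Finite W] {M : CoxeterMatrix (Fin 2)} (cs : CoxeterSystem M W)
    (ho : orderOf (cs.simple 0 * cs.simple 1) = 8) : ∃ e : DihedralGroup 8 ≃* W, e (.sr 0) = cs.simple 0 := by
  refine exists_dih (a := cs.simple 0) (x := cs.simple 0 * cs.simple 1) (cs.simple_mul_simple_self 0) ?_ ?_ ho ?_
  · rw [mul_inv_rev, cs.inv_simple, cs.inv_simple, cs.simple_mul_simple_cancel_left]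
  · intro h
    obtain ⟨k, hk⟩ := Subgroup.mem_zpowers_iff.1 h
    have h1 := congrArg cs.lengthParity hk
    rw [map_zpow, map_mul, cs.lengthParity_simple, cs.lengthParity_simple] at h1
    have h2 : (Multiplicative.ofAdd (1 : ZMod 2)) * Multiplicative.ofAdd (1 : ZMod 2) = 1 := by
      decide
    rw [h2, one_zpow] at h1
    exact absurd h1 (by decide)
  · rw [eq_top_iff, ← cs.subgroup_closure_range_simple, Subgroup.closure_le]
    rintro _ ⟨k, rfl⟩
    have h0 : cs.simple 0 ∈ Subgroup.zpowers (cs.simple 0) ⊔ Subgroup.zpowers (cs.simple 0 * cs.simple 1) :=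
      (le_sup_left : Subgroup.zpowers (cs.simple 0) ≤ _) (Subgroup.mem_zpowers _)
    have h01 : cs.simple 0 * cs.simple 1 ∈
        Subgroup.zpowers (cs.simple 0) ⊔ Subgroup.zpowers (cs.simple 0 * cs.simple 1) :=
      (le_sup_right : Subgroup.zpowers (cs.simple 0 * cs.simple 1) ≤ _) (Subgroup.mem_zpowers _)
    fin_cases k
    · exact h0
    · have h2 := mul_mem h0 h01
      rwa [cs.simple_mul_simple_cancel_left] at h2

/-- the class of a left coset of `⟨sr 0⟩` -/
def cl2 : DihedralGroup 8 → Fin 8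
  | .r k => k
  | .sr k => k

theorem cl2_left : ∀ w : DihedralGroup 8, cl2 (.sr 0 * w) = cl2 w := by decide +kernel

theorem cl2_sep : ∀ w w' : DihedralGroup 8, cl2 w = cl2 w' → w' = w ∨ w' = .sr 0 * w := by decide +kernel

theorem cl2_surj : ∀ i : Fin 8, ∃ w, cl2 w = i := by decide +kernel

section Orb

variable {W : Type v} {Y : Type u} {C : Type*} [Group W] [Group Y] {M : CoxeterMatrix (Fin 2)}
  {cs : CoxeterSystem M W} {p : ℕ} [MulAction Y C] {D : Dat Y (Fin 2) p} {Δ : Bldg cs C} {c : C}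
  (S : Bd D Δ c) (e : DihedralGroup 8 ≃* W) (he : e (.sr 0) = cs.simple 0)

include S in
theorem P_out (a : Y) : ∃ g ∈ D.P 0, ((a : Y ⧸ D.P 0)).out = a * g := by
  refine ⟨a⁻¹ * ((a : Y ⧸ D.P 0)).out, ?_, by group⟩
  rw [← QuotientGroup.eq, QuotientGroup.out_eq']

/-- the invariant -/
noncomputable def inv3 (e : DihedralGroup 8 ≃* W) (Δ : Bldg cs C) (c : C) (z : (Y ⧸ D.P 0) × C) : Fin 8 :=
  cl2 (e.symm (Δ.δ (z.1.out • c) z.2))

include he in
theorem symm_mul (w : W) : cl2 (e.symm (cs.simple 0 * w)) = cl2 (e.symm w) := by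
  have hes : e.symm (cs.simple 0) = .sr 0 := by rw [← he, e.symm_apply_apply]
  rw [map_mul, hes, cl2_left]

include S he in
theorem inv3_mk (a : Y) (y : C) : inv3 (D := D) e Δ c ((a : Y ⧸ D.P 0), y) = cl2 (e.symm (Δ.δ (a • c) y)) := by
  obtain ⟨g, hg, h1⟩ := P_out S a
  unfold inv3
  show cl2 (e.symm (Δ.δ (((a : Y ⧸ D.P 0)).out • c) y)) = _
  rw [h1]
  have h2 : Δ.δ (a • c) ((a * g) • c) = Δ.δ c (g • c) := S.δ_mul a g
  rcases S.P_stab hg with h | h
  · rw [h, Δ.eq_one] at h2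
    rw [h2]
  · rw [h] at h2
    have h3 : Δ.δ ((a * g) • c) (a • c) = cs.simple 0 := by rw [Δ.symm, h2, cs.inv_simple]
    rcases Δ.step_left (z := y) h3 with h4 | h4
    · rw [h4, symm_mul e he]
    · rw [h4]

include S he in
theorem card_orbits_mixed : Nat.card (orbitRel.Quotient Y ((Y ⧸ D.P 0) × C)) = 8 := by
  refine card_orbits Y (inv3 (D := D) e Δ c) ?_ ?_ ?_
  · rintro g ⟨x, y⟩
    induction x using QuotientGroup.induction_on with
    | _ a =>
    show inv3 (D := D) e Δ c (((g * a : Y) : Y ⧸ D.P 0), g • y) = _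
    rw [inv3_mk S e he, inv3_mk S e he, mul_smul, S.iso]
  · intro i
    obtain ⟨w, hw⟩ := cl2_surj i
    obtain ⟨y, hy⟩ := Δ.exists_δ c (e w)
    refine ⟨(((1 : Y) : Y ⧸ D.P 0), y), ?_⟩
    rw [inv3_mk S e he, one_smul, hy, e.symm_apply_apply, hw]
  · rintro ⟨x, y⟩ ⟨x', y'⟩ h
    induction x using QuotientGroup.induction_on with
    | _ a =>
    induction x' using QuotientGroup.induction_on with
    | _ a' =>
    rw [inv3_mk S e he, inv3_mk S e he] at h
    obtain ⟨l, hl, h2⟩ : ∃ l ∈ D.P 0, Δ.δ ((a * l) • c) y = Δ.δ (a' • c) y' := by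
      rcases cl2_sep _ _ h with h3 | h3
      · refine ⟨1, one_mem _, ?_⟩
        rw [mul_one]
        exact (e.symm.injective h3).symm
      · obtain ⟨z, hz, hz'⟩ := Δ.exists_step y (a • c) 0
        obtain ⟨g, rfl⟩ := S.trans z
        refine ⟨a⁻¹ * g, S.mem_P_of ?_, ?_⟩
        · rw [← hz, ← S.iso a, ← mul_smul, mul_inv_cancel_left]
        · have h4 := congrArg e h3
          rw [map_mul, e.apply_symm_apply, e.apply_symm_apply, he] at h4
          rw [mul_inv_cancel_left, Δ.symm y, hz', mul_inv_rev, cs.inv_simple, ← Δ.symm, h4]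
    obtain ⟨g, hg1, hg2⟩ := S.tr _ _ _ _ h2
    refine ⟨g, Prod.ext ?_ hg2⟩
    show ((g * a : Y) : Y ⧸ D.P 0) = (a' : Y ⧸ D.P 0)
    rw [eq_comm, QuotientGroup.eq]
    have h6 : a'⁻¹ * (g * (a * l)) ∈ D.B := by
      rw [S.B, mul_smul, mul_smul, hg1, ← mul_smul, inv_mul_cancel, one_smul]
    have h7 := mul_mem (D.B_le_P 0 h6) (inv_mem hl)
    have e7 : a'⁻¹ * (g * (a * l)) * l⁻¹ = a'⁻¹ * (g * a) := by group
    rwa [e7] at h7

include S he in
/-- **Four constituents.** -/
theorem exists_four [Fintype Y] [Finite C] :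
    ∃ χ : Fin 4 → IrrCharacter Y, Function.Injective χ ∧
      ∀ i, (χ i : Y → ℂ) ≠ (1 : Y → ℂ) ∧ classInner (pc Y (Y ⧸ D.P 0)) (χ i : Y → ℂ) ≠ 0 := by
  have h1 := S.card_orbits 0
  rw [Dih.card_DC e he] at h1
  have h2 := card_orbits_mixed S e he
  have hne : Nonempty C := ⟨c⟩
  refine Rank.exists_four (Y ⧸ D.P 0) C ?_ ?_ h1 ?_
  · intro x y
    exact MulAction.exists_smul_eq Y x y
  · intro x y
    obtain ⟨g, rfl⟩ := S.trans x
    obtain ⟨k, rfl⟩ := S.trans y
    exact ⟨k * g⁻¹, by rw [mul_smul, inv_smul_smul]⟩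
  · rw [h2]
    decide

end Orb

end Cfsg.Agent.H195.Dl.TwFBd
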