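import Cfsg.Agent.H996.Deg.TwFFour
import Cfsg.Agent.H949.SubInv
import Cfsg.Agent.H211.Dl.Perm
import Cfsg.Agent.H195.Dl.TwFBd
import Cfsg.Agent.KFacts.TwF4.AutNorm
import Cfsg.Agent.H71.Dl.HeightRows
import Cfsg.Agent.H759.Dl.Small

/-!
# `²F₄(q)`, `q ≥ 8`, `p = 2`, for S4769 (helper195)

Four characters of even degree, invariant under all automorphisms: the nontrivial constituents of the permutation
character on the points of the generalized octagon.
-/

set_option autoImplicit false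
set_option linter.unusedSectionVars false
set_option linter.unusedVariables false

namespace Cfsg.Agent.H195.Dl.TwF

open Cfsg Cfsg.Agent.SplitTwo Cfsg.Agent.SplitTwo.ZS Cfsg.Agent.TitsThree.RankTwoZ Cfsg.Agent.KFacts.TwF4
open Cfsg.Agent.KFacts.TwF4.Arc Cfsg.Agent.KFacts.TwF4.Irr
open Cfsg.Agent.H249 Cfsg.Agent.H392.TwFFour Cfsg.Agent.Tits.Core Cfsg.Agent.Characters.Core
open Cfsg.Agent.H996.Deg Cfsg.Agent.H246.Dl Cfsg.Agent.H464.PermIrr

universe u

section Full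

variable {F : Type*} [Field F] {σ : F →+* F} {G : Type u} [Group G] (S : Full σ G)

section Beta

variable {β : MulAut G} {τ : F →+* F} (ho : ∀ a t, β (S.o a t) = S.o a (τ t))
  (he : ∀ a p u, β (S.e a p u) = S.e a (τ p) (τ u))

include ho he

theorem XZ_of (k : ℤ) {x : G} (hx : x ∈ S.XZ k) : β x ∈ S.XZ k := by
  rcases Int.even_or_odd' k with ⟨a, rfl | rfl⟩
  · obtain ⟨p, u, rfl⟩ := (S.mem_XZ_even a x).1 hx
    rw [he]
    exact (S.mem_XZ_even a _).2 ⟨_, _, rfl⟩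
  · obtain ⟨t, rfl⟩ := (S.mem_XZ_odd a x).1 hx
    rw [ho]
    exact (S.mem_XZ_odd a _).2 ⟨_, rfl⟩

theorem X_of (k : ZMod (2 * 8)) {x : G} (hx : x ∈ S.R.X k) : β x ∈ S.R.X k := by
  obtain ⟨k, rfl⟩ := ZMod.intCast_surjective k
  exact XZ_of S ho he k hx

theorem X_iff [Finite G] (k : ZMod (2 * 8)) (x : G) : β x ∈ S.R.X k ↔ x ∈ S.R.X k := by
  refine ⟨fun h => ?_, X_of S ho he k⟩
  let f : S.R.X k → S.R.X k := fun y => ⟨β y, X_of S ho he k y.2⟩
  have hinj : Function.Injective f := fun y z h => Subtype.ext (β.injective (congrArg Subtype.val h))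
  obtain ⟨y, hy⟩ := (Finite.injective_iff_surjective.1 hinj) ⟨β x, h⟩
  have h1 : β y = β x := congrArg Subtype.val hy
  rw [← β.injective h1]
  exact y.2

theorem J_of {x : G} (hx : x ∈ J S.XZ 1 8) : β x ∈ J S.XZ 1 8 := by
  have h1 : J S.XZ 1 8 ≤ (J S.XZ 1 8).comap β.toMonoidHom :=
    iSup₂_le fun r hr y hy => mem_J (XZ_of S ho he r hy) hr.1 hr.2
  exact h1 hx

theorem maps_map [Finite G] {w : G} {f : ZMod (2 * 8) → ZMod (2 * 8)} (h : Maps S.R.X w f) :
    Maps S.R.X (β w) f := by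
  intro k x
  obtain ⟨y, rfl⟩ := β.surjective x
  rw [← map_inv, ← map_mul, ← map_mul, X_iff S ho he, X_iff S ho he, h]

variable [Finite F] [Finite G]

/-- **`β` fixes the double cosets of the Borel subgroup.** -/
theorem dc (hR : S.R.p = 2) (g : G) :
    ∃ a ∈ (datF S hR).B, ∃ b ∈ (datF S hR).B, β g = a * g * b := by
  have hT : ∀ t ∈ (datF S hR).T, β t ∈ (datF S hR).T := fun t ht => maps_map S ho he (f := id) ht
  have hU : ∀ u ∈ (datF S hR).U, β u ∈ (datF S hR).U := fun u hu => J_of S ho he hu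
  have hB : ∀ b ∈ (datF S hR).B, β b ∈ (datF S hR).B := by
    intro b hb
    obtain ⟨t, ht, u, hu, rfl⟩ := (datF S hR).mem_B.1 hb
    rw [map_mul]
    exact mul_mem ((datF S hR).T_le_B (hT t ht)) ((datF S hR).U_le_B (hU u hu))
  obtain ⟨u, hu, k, hk, b, hb, rfl⟩ := (datF S hR).bruhat g
  have hb' : b ∈ (datF S hR).B := hb
  have ht : k⁻¹ * β k ∈ (datF S hR).T := by
    have hk' : k ∈ Nm S := hk
    obtain ⟨c, hc⟩ := hk'
    show Maps S.R.X (k⁻¹ * β k) id
    have key : ∀ f : ZMod (2 * 8) → ZMod (2 * 8), Maps S.R.X k f → Maps S.R.X (k⁻¹ * β k) id := by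
      intro f hf j x
      have h1 := maps_map S ho he hf j x
      have h2 := hf j (k⁻¹ * β k * x * (k⁻¹ * β k)⁻¹)
      have e : k * (k⁻¹ * β k * x * (k⁻¹ * β k)⁻¹) * k⁻¹ = β k * x * (β k)⁻¹ := by group
      rw [e] at h2
      exact h2.symm.trans h1
    rcases hc with hc | hc
    · exact key _ hc
    · exact key _ hc
  refine ⟨β u * u⁻¹, mul_mem ((datF S hR).U_le_B (hU u hu)) (inv_mem ((datF S hR).U_le_B hu)),
    b⁻¹ * (k⁻¹ * β k) * β b, mul_mem (mul_mem (inv_mem hb') ((datF S hR).T_le_B ht)) (hB b hb'), ?_⟩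
  rw [map_mul, map_mul]
  group

end Beta

variable [Finite F] [Finite G]

/-- **The constituents of `1_B^G` are invariant.** -/
theorem inv_aut (hF : ∃ c : Fˣ, c ≠ 1) (hR : S.R.p = 2) {χ : G → ℂ} (hχ : IsIrrCharacter G χ)
    (h0 : ∑ᶠ b : (datF S hR).B, χ b ≠ 0) (α : MulAut G) (g : G) : χ (α g) = χ g := by
  classical
  have : Fintype (datF S hR).B := Fintype.ofFinite _
  rw [finsum_eq_sum_of_fintype] at h0
  obtain ⟨k, τ, ho, he⟩ := AutNorm.aut_form S hF hR α
  have ho' : ∀ a t, (MulAut.conj k⁻¹ * α) (S.o a t) = S.o a (τ t) := by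
    intro a t
    rw [MulAut.mul_apply, ho, MulAut.conj_apply]
    group
  have he' : ∀ a p u, (MulAut.conj k⁻¹ * α) (S.e a p u) = S.e a (τ p) (τ u) := by
    intro a p u
    rw [MulAut.mul_apply, he, MulAut.conj_apply]
    group
  have h1 := H949.SubInv.inv_of_dc (datF S hR).B hχ h0 (MulAut.conj k⁻¹ * α) (dc S ho' he' hR) g
  rw [← h1, MulAut.mul_apply, MulAut.conj_apply]
  exact (isIrr_isClassFunction hχ _ _).symm

/-- `8` is the order of `n₁ n₂` modulo the torus -/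
theorem pow_mem_T (hR : S.R.p = 2) (k : ℕ) : (S.n1 * S.n2) ^ k ∈ (datF S hR).T ↔ 8 ∣ k := by
  have h1 := H996.Deg.TwFFour.rot_pow S k
  constructor
  · intro h
    have h2 : Maps S.R.X ((S.n1 * S.n2) ^ k) id := h
    obtain ⟨x, hx, hx1⟩ : ∃ x ∈ S.R.X 0, x ≠ 1 := by
      rw [X_eq S 0]
      exact S.zsys8.exists_ne _
    by_contra hk
    have h3 : ((2 * k : ℕ) : ZMod (2 * 8)) ≠ 0 := by
      intro h4
      rw [ZMod.natCast_eq_zero_iff] at h4
      omega
    apply hx1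
    have h5 := (h1 0 x).2 hx
    have h6 := (h2 0 x).2 hx
    have h7 := S.X_inf (i := ((2 * k : ℕ) : ZMod (2 * 8)) + 0) (j := id 0) (by rw [add_zero]; exact h3) h5 h6
    have e : x = ((S.n1 * S.n2) ^ k)⁻¹ * ((S.n1 * S.n2) ^ k * x * ((S.n1 * S.n2) ^ k)⁻¹) * (S.n1 * S.n2) ^ k := by group
    rw [e, h7]
    group
  · intro h
    have h2 : ((2 * k : ℕ) : ZMod (2 * 8)) = 0 := by
      rw [ZMod.natCast_eq_zero_iff]
      omega
    show Maps S.R.X ((S.n1 * S.n2) ^ k) id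
    exact h1.congr fun j => by rw [h2, zero_add]; rfl

/-- Constituents of the permutation character on the cosets of `P`. -/
theorem classInner_ne_zero_of_sum {G : Type*} [Group G] [Fintype G] {P : Subgroup G} {χ : G → ℂ}
    (hχ : IsClassFunction G χ) (h : ∑ᶠ x : P, χ x ≠ 0) :
    classInner (fun g : G => (H211.Dl.fixN P g : ℂ)) χ ≠ 0 := by
  classical
  intro h0
  apply h
  have hc : IsClassFunction G (fun g => starRingEnd ℂ (χ g)) := fun g x => by
    simp only [hχ g x]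
  have h1 := H211.Dl.sum_fixN_mul_fun P hc
  rw [classInner_def, mul_eq_zero] at h0
  have h2 : ∑ g : G, (H211.Dl.fixN P g : ℂ) * starRingEnd ℂ (χ g) = 0 :=
    h0.resolve_left (inv_ne_zero card_ne_zero_complex)
  rw [h2, mul_zero, eq_comm, mul_eq_zero] at h1
  have h3 : (∑ g : G, if g ∈ P then starRingEnd ℂ (χ g) else 0) = 0 := h1.resolve_left card_ne_zero_complex
  rw [H211.Dl.finsum_subgroup_eq]
  have h4 := congrArg (fun z => starRingEnd ℂ z) h3
  simp only [map_sum, map_zero] at h4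
  refine Eq.trans (Finset.sum_congr rfl fun g _ => ?_) h4
  split_ifs
  · rw [Complex.conj_conj]
  · rw [map_zero]

/-- **Four invariant characters of even degree.** -/
theorem many (hF : ∃ c : Fˣ, c ≠ 1) (hR : S.R.p = 2) : Many 2 G 4 := by
  classical
  obtain ⟨M, W, iW, iF, cs, Δ, hΔ, hpow⟩ := TwFBd.exists_bd' (datF S hR) (H996.Deg.TwFFour.N_le S hR)
    (H996.Deg.TwFFour.B_inf_N S hR) (H996.Deg.TwFFour.n_inj S hR)
  have := Fintype.ofFinite G
  have := Fintype.ofFinite W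
  have := Fintype.ofFinite (G ⧸ (datF S hR).B)
  have ho : orderOf (cs.simple 0 * cs.simple 1) = 8 := by
    have key : ∀ k : ℕ, (cs.simple 0 * cs.simple 1) ^ k = 1 ↔ 8 ∣ k := fun k =>
      (hpow 0 1 k).trans (pow_mem_T S hR k)
    exact Nat.dvd_antisymm (orderOf_dvd_of_pow_eq_one ((key 8).2 dvd_rfl)) ((key _).1 (pow_orderOf_eq_one _))
  obtain ⟨e, he⟩ := TwFBd.exists_dih_cs cs ho
  obtain ⟨χ, hinj, hχ⟩ := TwFBd.exists_four hΔ e he
  have hsum : ∀ i, ∑ᶠ x : (datF S hR).B, (χ i : G → ℂ) x ≠ 0 := fun i =>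
    H211.Dl.sum_ne_zero_of_le (isIrr_isCharacter (χ i).2) ((datF S hR).B_le_P 0)
      (H211.Dl.sum_ne_zero_of_classInner (isIrr_isClassFunction (χ i).2) (hχ i).2)
  refine ⟨χ, fun i => ?_, fun i j hij σ => ?_⟩
  · exact hΔ.dvd_of_constituent (gen_U S hF hR) (exists_jdat S hF hR) (χ i).2 (hχ i).1
      (classInner_ne_zero_of_sum (isIrr_isClassFunction (χ i).2) (hsum i))
      (Blocks.Basic.irr_one_eq_charDegree (χ i).2)
  · by_contra hcon
    push Not at hcon
    apply hij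
    apply hinj
    apply Subtype.ext
    funext g
    rw [← hcon g]
    exact (inv_aut S hF hR (χ i).2 (hsum i) σ g).symm

end Full

/-- **`²F₄(q)`, `q ≥ 8`, `p = 2`.** -/
theorem row_two {S : Type*} [Group S] [Finite S] (h : Lie.Iso2F4 S) : Row 2 S := by
  have h4 := Cfsg.Agent.H71.Dl.dl_eq_2F4 h
  obtain ⟨K, _, _, m, hm, hK, ⟨e⟩⟩ := h
  have hch := Cfsg.Agent.ChevalleyStructure.TwF4.Twisted.charP_two hK
  have hfin : Finite ↥(Lie.twistedF4 K (2 ^ m)) := Finite.of_equiv S e.toEquiv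
  obtain ⟨φ, hφ⟩ := Cfsg.Agent.ChevalleyStructure.TwF4.TwistedFix.exists_rln hK
  set D := Cfsg.Agent.KFacts.TwF4.Inst.full hK hφ with hS
  have hF := H42.Deg.F4.exists_unit hm hK
  exact Row.of_le h4 (Many.of_equiv e (many D hF rfl)) le_rfl

end Cfsg.Agent.H195.Dl.TwF
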